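import Cfsg.Agent.Lib.Helper16.Pron
import Cfsg.Agent.Lib.Helper1.SZ
import Cfsg.Agent.Lib.Helper1.PGrp
import Cfsg.Agent.Lib.Helper1.JC0
import Cfsg.Agent.Lib.Helper4.Basic
import Cfsg.Agent.Lib.Helper29.PSolvable2

set_option autoImplicit false
set_option linter.unusedSectionVars false
open Cfsg
open scoped Pointwise commutatorElement

namespace Cfsg.Agent.Lib.Helper16

open Cfsg.Agent.Lib.Helper20 (cj mem_cj cj_cj cj_one cj_inv_cj cj_cj_inv cj_mono
  cj_eq_of_mem_normalizer mem_normalizer_of_cj_eq card_cj)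

/-- every maximal subgroup has a normal `p`-complement or prime index. -/
def MaxHyp (p : ℕ) (G : Type*) [Group G] : Prop :=
  ∀ M : Subgroup G, IsCoatom M →
    (∃ K : Subgroup ↥M, K.Normal ∧ ¬ p ∣ Nat.card K ∧ ∃ k : ℕ, K.index = p ^ k) ∨ (M.index).Prime

variable {G : Type*} [Group G] [Finite G] {p : ℕ} [hp : Fact p.Prime]

theorem card_subgroupOf_of_le {H K : Subgroup G} (h : H ≤ K) :
    Nat.card (H.subgroupOf K) = Nat.card H :=
  Nat.card_congr (Subgroup.subgroupOfEquivOfLe h).toEquiv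

/-- Schur--Zassenhaus and the Frattini argument. -/
theorem le_of_coprime_relIndex_of_le_frattini {R W : Subgroup G} [R.Normal] [hW : W.Normal]
    (hRW : R ≤ W) (hRp : IsPGroup p R) (hRF : R ≤ frattini G) (hcop : (R.relIndex W).Coprime p)
    (hO : pPrimeCore p G = ⊥) : W ≤ R := by
  obtain ⟨k, hk⟩ := IsPGroup.iff_card.mp hRp
  have hc1 : (Nat.card (R.subgroupOf W)).Coprime (R.subgroupOf W).index := by
    rw [card_subgroupOf_of_le hRW, hk]
    exact Nat.Coprime.pow_left k hcop.symm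
  obtain ⟨Q', hQ'⟩ := Subgroup.exists_right_complement'_of_coprime hc1
  have hQi : (R.subgroupOf W).index = Nat.card Q' := hQ'.symm.index_eq_card
  obtain ⟨Q, hQ⟩ : ∃ Q, Q = Q'.map W.subtype := ⟨_, rfl⟩
  have hQW : Q ≤ W := hQ ▸ Subgroup.map_subtype_le _
  have hQsub : Q.subgroupOf W = Q' := by
    rw [hQ]
    exact Subgroup.comap_map_eq_self_of_injective W.subtype_injective _
  have hQc : Nat.card Q = Nat.card Q' := by rw [← hQsub, card_subgroupOf_of_le hQW]
  have hsolv : Group.IsSolvable ↥(R.subgroupOf W) := by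
    have h0 : IsPGroup p ↥(R.subgroupOf W) := hRp.comap_subtype
    have h1 : Group.IsNilpotent ↥(R.subgroupOf W) := h0.isNilpotent
    exact IsNilpotent.to_isSolvable
  have hQn : Q.Normal := by
    rw [← Subgroup.normalizer_eq_top_iff]
    apply frattini_nongenerating
    rw [eq_top_iff]
    intro g _
    have hQg : cj g Q ≤ W := by
      intro x hx
      rw [mem_cj] at hx
      have := hW.conj_mem _ (hQW hx) g
      simpa [mul_assoc] using this
    have hcg : Nat.card ((cj g Q).subgroupOf W) = Nat.card Q' := by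
      rw [card_subgroupOf_of_le hQg, card_cj, hQc]
    have hcomp : Subgroup.IsComplement' (R.subgroupOf W) ((cj g Q).subgroupOf W) := by
      apply Subgroup.isComplement'_of_coprime
      · rw [hcg]; exact hQ'.card_mul_card
      · rw [hcg, ← hQi]; exact hc1
    obtain ⟨r, hr, hrQ⟩ := Cfsg.Agent.Lib.Helper1.sz_conj_mem (R.subgroupOf W) Q'
      ((cj g Q).subgroupOf W) hQ' hcomp (by rw [← hQi]; exact hc1) (Or.inl hsolv)
    have h1 : MulAut.conj (r : G) • Q = cj g Q :=
      Cfsg.Agent.Lib.Helper1.conj_smul_of_subgroupOf hQW hQg r (by rw [hQsub]; exact hrQ)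
    have h2 : cj (r : G) Q = cj g Q := h1
    have h3 : (r : G)⁻¹ * g ∈ Subgroup.normalizer (Q : Set G) := by
      apply mem_normalizer_of_cj_eq
      rw [← cj_cj, ← h2, cj_inv_cj]
    have h4 : g = (r : G) * ((r : G)⁻¹ * g) := by group
    rw [h4]
    exact Subgroup.mul_mem _ (Subgroup.mem_sup_right (hRF hr)) (Subgroup.mem_sup_left h3)
  have hQb : Q ≤ pPrimeCore p G := by
    apply Cfsg.Agent.Lib.Helper8.le_pPrimeCore_of_normal hQn
    rw [hQc, ← hQi]
    exact hcop
  rw [hO, le_bot_iff] at hQb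
  rw [← Subgroup.relIndex_eq_one]
  change (R.subgroupOf W).index = 1
  rw [hQi, ← hQc, hQb]
  simp

/-- `C_G(O_p(G)/Φ) ≤ O_p(G)`. -/
theorem le_pCore_of_commutator_le_frattini {S : Subgroup G} (hG : IsPSolvable p G)
    (hO : pPrimeCore p G = ⊥) (hS : ⁅pCore p G, S⁆ ≤ frattini G) : S ≤ pCore p G := by
  have hFn : (frattini G).Normal := inferInstance
  obtain ⟨R, hR⟩ : ∃ R, R = pCore p G ⊓ frattini G := ⟨_, rfl⟩
  haveI hRn : R.Normal := by rw [hR]; infer_instance
  have hRp : IsPGroup p R := by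
    rw [hR]; exact (Cfsg.Agent.Lib.Helper8.isPGroup_pCore p).to_le inf_le_left
  have hRP : R ≤ pCore p G := by rw [hR]; exact inf_le_left
  have hRF : R ≤ frattini G := by rw [hR]; exact inf_le_right
  have hSR : ⁅pCore p G, S⁆ ≤ R := by
    rw [hR]
    exact le_inf (Subgroup.commutator_le_left _ _) hS
  have hO' : pPrimeCore p (G ⧸ R) = ⊥ :=
    Cfsg.Agent.Lib.Helper29.pPrimeCore_quotient_eq_bot R (fun W hWn hRW hcop => by
      haveI := hWn
      exact le_of_coprime_relIndex_of_le_frattini hRW hRp hRF hcop hO)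
  have hHH := Cfsg.Agent.Lib.Helper29.centralizer_pCore_le
    (Cfsg.Agent.Lib.Helper29.psol_quotient hG R) hO'
  have h1 : pCore p (G ⧸ R) ≤ (pCore p G).map (QuotientGroup.mk' R) := by
    have h2 : (pCore p (G ⧸ R)).comap (QuotientGroup.mk' R) ≤ pCore p G := by
      apply Cfsg.Agent.Lib.Helper8.le_pCore_of_normal (Subgroup.Normal.comap inferInstance _)
      apply IsPGroup.comap_of_ker_isPGroup (Cfsg.Agent.Lib.Helper8.isPGroup_pCore p)
      rw [QuotientGroup.ker_mk']
      exact hRp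
    rw [← Subgroup.map_comap_eq_self_of_surjective (QuotientGroup.mk'_surjective R) (pCore p (G ⧸ R))]
    exact Subgroup.map_mono h2
  have h2 : S.map (QuotientGroup.mk' R) ≤
      Subgroup.centralizer (((pCore p G).map (QuotientGroup.mk' R) : Subgroup (G ⧸ R)) : Set (G ⧸ R)) := by
    rintro _ ⟨s, hs, rfl⟩
    rw [Subgroup.mem_centralizer_iff]
    rintro _ ⟨y, hy, rfl⟩
    have h3 : ⁅y, s⁆ ∈ R := hSR (Subgroup.commutator_mem_commutator hy hs)
    have h4 : QuotientGroup.mk' R ⁅y, s⁆ = 1 := (QuotientGroup.eq_one_iff _).mpr h3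
    rw [map_commutatorElement, commutatorElement_eq_one_iff_mul_comm] at h4
    exact h4
  have h3 : S.map (QuotientGroup.mk' R) ≤ (pCore p G).map (QuotientGroup.mk' R) :=
    h2.trans ((Subgroup.centralizer_le h1).trans (hHH.trans h1))
  have h4 := Subgroup.map_le_map_iff.mp h3
  rwa [QuotientGroup.ker_mk', sup_eq_left.mpr hRP] at h4

theorem index_eq_relIndex_of_sup_eq_top {P M : Subgroup G} [P.Normal] (h : M ⊔ P = ⊤) :
    M.index = M.relIndex P := by
  have h1 : P.index = P.relIndex M := by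
    rw [← Subgroup.relIndex_sup_right M P, h, Subgroup.relIndex_top_right]
  have h2 : Nat.card M = Nat.card (P ⊓ M : Subgroup G) * P.relIndex M := by
    rw [Cfsg.Agent.Lib.Helper4.card_eq_mul_relIndex (inf_le_right : P ⊓ M ≤ M), Subgroup.inf_relIndex_right]
  have h3 : Nat.card P = Nat.card (P ⊓ M : Subgroup G) * M.relIndex P := by
    rw [Cfsg.Agent.Lib.Helper4.card_eq_mul_relIndex (inf_le_left : P ⊓ M ≤ P), Subgroup.inf_relIndex_left]
  have h4 := M.card_mul_index
  have h5 := P.card_mul_index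
  rw [h2] at h4
  rw [h3, h1] at h5
  have hpos : 0 < Nat.card (P ⊓ M : Subgroup G) * P.relIndex M := by
    rw [← h2]; exact Nat.card_pos
  apply Nat.eq_of_mul_eq_mul_left hpos
  rw [h4, ← h5]
  ring

theorem sup_eq_top_of_coatom {P M : Subgroup G} (hM : IsCoatom M) (hPM : ¬ P ≤ M) : M ⊔ P = ⊤ :=
  hM.2 _ (lt_of_le_not_ge le_sup_left (fun h => hPM (le_sup_right.trans h)))

theorem commutator_le_of_prime_index {P M S : Subgroup G} [P.Normal] (hP : IsPGroup p P)
    (hM : IsCoatom M) (hPM : ¬ P ≤ M) (hi : (M.index).Prime) (hS : IsPGroup p S) (hPS : P ≤ S) :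
    ⁅S, S⁆ ≤ M := by
  have htop := sup_eq_top_of_coatom hM hPM
  have h1 : M.index = p := by
    obtain ⟨n, hn⟩ := IsPGroup.iff_card.mp hP
    have h2 : M.index ∣ p ^ n := by
      rw [index_eq_relIndex_of_sup_eq_top htop, ← hn]
      exact Subgroup.relIndex_dvd_card _ _
    exact (Nat.prime_dvd_prime_iff_eq hi hp.out).mp (hi.dvd_of_dvd_pow h2)
  have h2 : M.relIndex S ≤ p := by
    have := Subgroup.relIndex_le_of_le_right (H := M) (le_top : S ≤ ⊤)
      (by rw [Subgroup.relIndex_top_right, h1]; exact hp.out.ne_zero)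
    rwa [Subgroup.relIndex_top_right, h1] at this
  obtain ⟨m, hm⟩ := IsPGroup.iff_card.mp hS
  have h3 : M.relIndex S ∣ p ^ m := by
    rw [← hm]; exact Subgroup.relIndex_dvd_card _ _
  obtain ⟨j, -, hj⟩ := (Nat.dvd_prime_pow hp.out).mp h3
  have hj0 : j ≠ 0 := by
    rintro rfl
    rw [pow_zero, Subgroup.relIndex_eq_one] at hj
    exact hPM (hPS.trans hj)
  have h4 : M.relIndex S = p := by
    apply le_antisymm h2
    rw [hj]
    exact Nat.le_self_pow hj0 p
  have hm0 : m ≠ 0 := by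
    rintro rfl
    rw [pow_zero] at h3
    have := Nat.dvd_one.mp h3
    rw [h4] at this
    exact hp.out.one_lt.ne' this
  have hn : (M.subgroupOf S).Normal := by
    apply Subgroup.normal_of_index_eq_minFac_card
    rw [hm, Nat.Prime.pow_minFac hp.out hm0]
    exact h4
  have hc : Nat.card (↥S ⧸ M.subgroupOf S) = p := by
    rw [← Subgroup.index_eq_card]; exact h4
  haveI := isCyclic_of_prime_card hc
  have h5 : _root_.commutator ↥S ≤ M.subgroupOf S :=
    Subgroup.Normal.quotient_commutative_iff_commutator_le.mp inferInstance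
  rw [← Subgroup.map_subtype_commutator]
  calc (_root_.commutator ↥S).map S.subtype ≤ (M.subgroupOf S).map S.subtype := Subgroup.map_mono h5
    _ ≤ M := by
      rw [Subgroup.subgroupOf_map_subtype]
      exact inf_le_left

/-- Case A. -/
theorem chain_of_pNilpotent_coatom {P M : Subgroup G} [hPn : P.Normal] (hP : IsPGroup p P)
    (hM : IsCoatom M) (hPM : ¬ P ≤ M) {K : Subgroup ↥M} (hKn : K.Normal) (hKp : ¬ p ∣ Nat.card K)
    {k : ℕ} (hKi : K.index = p ^ k) :
    ∃ C : Subgroup G, C.Normal ∧ P ≤ C ∧ ¬ p ∣ P.relIndex C ∧ ∃ k : ℕ, C.index = p ^ k := by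
  have htop := sup_eq_top_of_coatom hM hPM
  have hMK : M ≤ Subgroup.normalizer ((K.map M.subtype : Subgroup G) : Set G) := by
    have h1 := Subgroup.le_normalizer_map (H := K) M.subtype
    rw [Subgroup.normalizer_eq_top_iff.mpr hKn, ← MonoidHom.range_eq_map, Subgroup.range_subtype] at h1
    exact h1
  refine ⟨P ⊔ K.map M.subtype, ?_, le_sup_left, ?_, ?_⟩
  · rw [← Subgroup.normalizer_eq_top_iff, eq_top_iff, ← htop]
    refine sup_le ?_ (le_sup_left.trans Subgroup.le_normalizer)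
    intro m hm
    apply mem_normalizer_of_cj_eq
    have e : cj m (P ⊔ K.map M.subtype) = cj m P ⊔ cj m (K.map M.subtype) := Subgroup.map_sup _ _ _
    rw [e, cj_eq_of_mem_normalizer (hMK hm),
      cj_eq_of_mem_normalizer (by rw [Subgroup.normalizer_eq_top]; trivial)]
  · rw [Subgroup.relIndex_sup_left]
    intro hd
    apply hKp
    have h1 : Nat.card (K.map M.subtype) = Nat.card K :=
      Subgroup.card_map_of_injective M.subtype_injective
    rw [← h1]
    exact hd.trans (Subgroup.relIndex_dvd_card _ _)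
  · obtain ⟨n, hn⟩ := IsPGroup.iff_card.mp hP
    have h2 : M.index ∣ p ^ n := by
      rw [index_eq_relIndex_of_sup_eq_top htop, ← hn]
      exact Subgroup.relIndex_dvd_card _ _
    have h3 : (P ⊔ K.map M.subtype).index ∣ p ^ (k + n) := by
      refine (Subgroup.index_dvd_of_le (le_sup_right : K.map M.subtype ≤ P ⊔ K.map M.subtype)).trans ?_
      rw [Subgroup.index_map_subtype, hKi, pow_add]
      exact Nat.mul_dvd_mul_left _ h2
    obtain ⟨j, -, hj⟩ := (Nat.dvd_prime_pow hp.out).mp h3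
    exact ⟨j, hj⟩

theorem maxHyp_core (hG : IsPSolvable p G) (hO : pPrimeCore p G = ⊥) (hmax : MaxHyp p G) :
    ∃ C : Subgroup G, C.Normal ∧ pCore p G ≤ C ∧ ¬ p ∣ (pCore p G).relIndex C ∧
      ∃ k : ℕ, C.index = p ^ k := by
  have hP : IsPGroup p (pCore p G) := Cfsg.Agent.Lib.Helper8.isPGroup_pCore p
  by_cases hA : ∃ M : Subgroup G, IsCoatom M ∧ ¬ pCore p G ≤ M ∧
      ∃ K : Subgroup ↥M, K.Normal ∧ ¬ p ∣ Nat.card K ∧ ∃ k : ℕ, K.index = p ^ k
  · obtain ⟨M, hM, hPM, K, hKn, hKp, k, hKi⟩ := hA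
    exact chain_of_pNilpotent_coatom hP hM hPM hKn hKp hKi
  · push Not at hA
    obtain ⟨S, hS, hPS⟩ := exists_sylIn_ge hP (le_top : pCore p G ≤ ⊤)
    have h1 : ⁅pCore p G, S⁆ ≤ frattini G := by
      rw [Cfsg.Agent.Lib.Helper1.le_frattini_iff]
      intro M hM
      by_cases hPM : pCore p G ≤ M
      · exact (Subgroup.commutator_le_left _ _).trans hPM
      · rcases hmax M hM with ⟨K, hKn, hKp, k, hKi⟩ | hi
        · exact absurd hKi (hA M hM hPM K hKn hKp k)
        · exact (Subgroup.commutator_mono hPS le_rfl).trans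
            (commutator_le_of_prime_index hP hM hPM hi hS.2.1 hPS)
    have h2 : S ≤ pCore p G := le_pCore_of_commutator_le_frattini hG hO h1
    refine ⟨⊤, inferInstance, le_top, ?_, 0, by simp⟩
    rw [Subgroup.relIndex_top_right]
    exact hS.not_dvd_index_of_le h2

theorem MaxHyp.quotient (hmax : MaxHyp p G) (A : Subgroup G) [A.Normal] : MaxHyp p (G ⧸ A) := by
  intro M hM
  have hsurj := QuotientGroup.mk'_surjective A
  rcases hmax _ (Subgroup.isCoatom_comap_of_surjective hsurj hM) with ⟨K, hKn, hKp, k, hKi⟩ | hi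
  · left
    have hs := MonoidHom.subgroupComap_surjective_of_surjective (QuotientGroup.mk' A) M hsurj
    refine ⟨K.map ((QuotientGroup.mk' A).subgroupComap M), hKn.map _ hs, ?_, ?_⟩
    · exact fun hd => hKp (hd.trans (Subgroup.card_map_dvd _ _))
    · have h1 : (K.map ((QuotientGroup.mk' A).subgroupComap M)).index ∣ p ^ k := by
        rw [← hKi]; exact Subgroup.index_map_dvd _ hs
      obtain ⟨j, -, hj⟩ := (Nat.dvd_prime_pow hp.out).mp h1
      exact ⟨j, hj⟩
  · right
    rwa [Subgroup.index_comap_of_surjective _ hsurj] at hi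

theorem maxHyp_chain (hG : IsPSolvable p G) (hmax : MaxHyp p G) :
    ∃ A B C : Subgroup G, A.Normal ∧ B.Normal ∧ C.Normal ∧ A ≤ B ∧ B ≤ C ∧ ¬ p ∣ Nat.card A ∧
      (∃ k : ℕ, A.relIndex B = p ^ k) ∧ ¬ p ∣ B.relIndex C ∧ ∃ k : ℕ, C.index = p ^ k := by
  have hsurj := QuotientGroup.mk'_surjective (pPrimeCore p G)
  obtain ⟨C, hCn, hPC, hCp, k, hCi⟩ := maxHyp_core
    (Cfsg.Agent.Lib.Helper29.psol_quotient hG (pPrimeCore p G))
    Cfsg.Agent.Lib.Helper29.pPrimeCore_quotient_self (hmax.quotient (pPrimeCore p G))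
  refine ⟨pPrimeCore p G, (pCore p (G ⧸ pPrimeCore p G)).comap (QuotientGroup.mk' _),
    C.comap (QuotientGroup.mk' _), inferInstance, Subgroup.Normal.comap inferInstance _,
    Subgroup.Normal.comap hCn _, ?_, Subgroup.comap_mono hPC, ?_, ?_, ?_, k, ?_⟩
  · intro x hx
    rw [Subgroup.mem_comap]
    have : QuotientGroup.mk' (pPrimeCore p G) x = 1 := (QuotientGroup.eq_one_iff x).mpr hx
    rw [this]
    exact Subgroup.one_mem _
  · exact (Nat.Prime.coprime_iff_not_dvd hp.out).mp
      (Cfsg.Agent.Lib.Helper8.coprime_card_pPrimeCore p).symm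
  · rw [← Cfsg.Agent.Lib.Helper29.card_eq_relIndex_comap]
    exact IsPGroup.iff_card.mp (Cfsg.Agent.Lib.Helper8.isPGroup_pCore p)
  · rw [Subgroup.relIndex_comap, Subgroup.map_comap_eq_self_of_surjective hsurj]
    exact hCp
  · rw [Subgroup.index_comap_of_surjective _ hsurj]
    exact hCi

end Cfsg.Agent.Lib.Helper16
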