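import Mathlib
import Cfsg.Agent.Lib.Helper16.FS2
import Cfsg.Agent.Lib.Helper8.LBalance
import Cfsg.Agent.Lib.Helper8.PBalance
import Cfsg.Agent.S1327

set_option autoImplicit false
set_option linter.unusedSectionVars false

namespace Cfsg.Agent.Lib.Helper16

open Cfsg
open Cfsg.Agent.Lib.Helper8 (SubnIn subnIn_top PQS)

variable {G : Type*} [Group G]

/-- `M` is `p`-constrained (ambient, intrinsic form): no subnormal `p`-quasisimple subgroup. -/
def PCon (p : ℕ) (M : Subgroup G) : Prop := ∀ W : Subgroup G, SubnIn W M → ¬ PQS p W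

variable [Finite G] {p : ℕ} [hp : Fact p.Prime] {M N P T : Subgroup G}

theorem pLayer_eq_bot_iff_top : pLayer p G = ⊥ ↔ PCon p (⊤ : Subgroup G) := by
  constructor
  · intro h W hW hq
    have h1 : IsPComponent p W := (Cfsg.Agent.Lib.Helper8.isPComponent_iff p W).mpr ⟨subnIn_top.mp hW, hq⟩
    have h2 := Cfsg.Agent.Lib.Helper8.le_pLayer_of_isPComponent h1
    rw [h, le_bot_iff] at h2
    exact hq.ne_bot h2
  · intro h
    rw [eq_bot_iff]
    apply sSup_le
    intro K hK
    exfalso
    have h1 := (Cfsg.Agent.Lib.Helper8.isPComponent_iff p K).mp hK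
    exact h K (subnIn_top.mpr h1.1) h1.2

theorem pCon_top_subtype_iff (M : Subgroup G) : PCon p (⊤ : Subgroup ↥M) ↔ PCon p M := by
  constructor
  · intro h W hW hq
    have h1 : (W.subgroupOf M).map M.subtype = W := Subgroup.map_subgroupOf_eq_of_le hW.1
    refine h (W.subgroupOf M) (subnIn_top.mpr hW.2) ?_
    rw [← Cfsg.Agent.Lib.Helper8.pqs_map_iff M.subtype M.subtype_injective, h1]
    exact hq
  · intro h K hK hq
    refine h (K.map M.subtype) (Cfsg.Agent.Lib.Helper8.subnIn_map_subtype.mpr (subnIn_top.mp hK)) ?_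
    rw [Cfsg.Agent.Lib.Helper8.pqs_map_iff M.subtype M.subtype_injective]
    exact hq

theorem isPConstrained_iff_top : IsPConstrained p G ↔ PCon p (⊤ : Subgroup G) := by
  rw [Cfsg.Agent.S1327.result, pLayer_eq_bot_iff_top]

theorem isPConstrained_iff (M : Subgroup G) : IsPConstrained p ↥M ↔ PCon p M := by
  rw [isPConstrained_iff_top, pCon_top_subtype_iff]

theorem PCon.of_subnIn (h : PCon p M) (hN : SubnIn N M) : PCon p N := fun W hW => h W (hW.trans hN)

theorem PCon.normalizer_top (h : PCon p (⊤ : Subgroup G)) (hP : IsPGroup p P) :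
    PCon p (Subgroup.normalizer (P : Set G)) := fun _ hW =>
  (Cfsg.Agent.Lib.Helper8.local_of_pLayer_eq_bot p (pLayer_eq_bot_iff_top.mpr h) hP hW).2

theorem PCon.inf_normalizer (h : PCon p M) (hP : IsPGroup p P) (hPM : P ≤ M) :
    PCon p (M ⊓ Subgroup.normalizer (P : Set G)) := by
  intro W hW hq
  have hWM : W ≤ M := hW.1.trans inf_le_left
  have h1 : SubnIn (W.subgroupOf M) (Subgroup.normalizer ((P.subgroupOf M : Subgroup M) : Set M)) := by
    have := hW.comap M.subtype
    rwa [le_antisymm Cfsg.Agent.Lib.Helper8.comap_subtype_inf_normalizer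
      (Cfsg.Agent.Lib.Helper8.normalizer_subgroupOf_le hPM)] at this
  have h2 : IsPGroup p (P.subgroupOf M) := hP.of_equiv (Subgroup.subgroupOfEquivOfLe hPM).symm
  refine ((pCon_top_subtype_iff M).mpr h).normalizer_top h2 _ h1 ?_
  rw [← Cfsg.Agent.Lib.Helper8.pqs_map_iff M.subtype M.subtype_injective,
    Subgroup.map_subgroupOf_eq_of_le hWM]
  exact hq

theorem subnIn_centralizer_normalizer (P : Subgroup G) :
    SubnIn (Subgroup.centralizer (P : Set G)) (Subgroup.normalizer (P : Set G)) :=
  SubnIn.of_normal (Subgroup.centralizer_le_normalizer _) (normalizer_le_normalizer_centralizer P)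

theorem PCon.centralizer_of_normalizer (h : PCon p (Subgroup.normalizer (P : Set G))) :
    PCon p (Subgroup.centralizer (P : Set G)) := h.of_subnIn (subnIn_centralizer_normalizer P)

theorem PCon.normalizer_of_centralizer (h : PCon p (Subgroup.centralizer (P : Set G)))
    (hP : IsPGroup p P) : PCon p (Subgroup.normalizer (P : Set G)) := by
  intro W hW hq
  have h1 := Cfsg.Agent.Lib.Helper8.commutator_eq_bot_of_subnIn' hW (Or.inr hq) hP Subgroup.le_normalizer le_rfl
  have h2 : W ≤ Subgroup.centralizer (P : Set G) := Subgroup.commutator_eq_bot_iff_le_centralizer.mp h1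
  exact h W (hW.of_le h2 (Subgroup.centralizer_le_normalizer _)) hq

/-- `C_G(V)` `p`-constrained, `V ≤ Z(T)`-like: then `N_G(T)` is `p`-constrained -/
theorem PCon.normalizer_of_centralizer_le {V : Subgroup G} (h : PCon p (Subgroup.centralizer (V : Set G)))
    (hT : IsPGroup p T) (hVT : V ≤ T) (hTV : T ≤ Subgroup.centralizer (V : Set G)) :
    PCon p (Subgroup.normalizer (T : Set G)) := by
  apply PCon.normalizer_of_centralizer _ hT
  have h1 := h.inf_normalizer hT hTV
  refine h1.of_subnIn (SubnIn.of_normal (le_inf (Subgroup.centralizer_le hVT)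
    (Subgroup.centralizer_le_normalizer _)) (inf_le_right.trans (normalizer_le_normalizer_centralizer T)))

end Cfsg.Agent.Lib.Helper16
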