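import Mathlib
import Cfsg.Agent.Lib.Helper16.SPE
import Cfsg.Agent.Lib.Helper9.Generation
import Cfsg.Agent.Lib.Helper1.CoprimeSylow
import Cfsg.Agent.Lib.Helper1.Cores
import Cfsg.Agent.Lib.Helper17.Cores
import Cfsg.Agent.Lib.Helper29.PSolvable2
import Cfsg.Agent.Lib.Helper8.PBalance

set_option autoImplicit false

namespace Cfsg.Agent.Lib.Helper16

open scoped commutatorElement

variable {G : Type*} [Group G]

theorem pPrimePCore_characteristic (p : ℕ) : (Cfsg.pPrimePCore p G).Characteristic := by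
  have hc : (Cfsg.pPrimeCore p G).Characteristic := Cfsg.Agent.Lib.Helper17.pPrimeCore_characteristic p
  rw [Subgroup.characteristic_iff_map_le]
  intro φ
  have hn : ((Cfsg.pPrimePCore p G).map φ.toMonoidHom).Normal :=
    Subgroup.Normal.map (Subgroup.Normal.comap (Cfsg.Agent.Lib.Helper1.pCore_normal p) _) _ φ.surjective
  have h1 : (((Cfsg.pPrimePCore p G).map φ.toMonoidHom).map (QuotientGroup.mk' (Cfsg.pPrimeCore p G))) ≤
      Cfsg.pCore p (G ⧸ Cfsg.pPrimeCore p G) := by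
    apply Cfsg.Agent.Lib.Helper1.le_pCore (hn.map _ (QuotientGroup.mk'_surjective _))
    rintro ⟨_, ⟨_, ⟨x, hx, rfl⟩, rfl⟩⟩
    have hx' : QuotientGroup.mk' (Cfsg.pPrimeCore p G) x ∈ Cfsg.pCore p (G ⧸ Cfsg.pPrimeCore p G) := hx
    obtain ⟨k, hk⟩ := Cfsg.Agent.Lib.Helper1.pCore_isPGroup p ⟨_, hx'⟩
    refine ⟨k, ?_⟩
    apply Subtype.ext
    have hk' : (QuotientGroup.mk' (Cfsg.pPrimeCore p G) x) ^ p ^ k = 1 := congrArg Subtype.val hk
    rw [← map_pow, QuotientGroup.mk'_apply, QuotientGroup.eq_one_iff] at hk'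
    show (QuotientGroup.mk' (Cfsg.pPrimeCore p G) (φ.toMonoidHom x)) ^ p ^ k = 1
    rw [← map_pow, ← map_pow, QuotientGroup.mk'_apply, QuotientGroup.eq_one_iff]
    exact (Subgroup.characteristic_iff_map_le.mp hc φ) ⟨_, hk', rfl⟩
  intro y hy
  exact h1 ⟨y, hy, rfl⟩

theorem le_map_pPrimeCore_of_commutator_coprime [Finite G] (p : ℕ) [Fact p.Prime] (A K : Subgroup G)
    (hA : Cfsg.IsElementaryAbelian p A) (hA2 : p ^ 2 ≤ Nat.card ↥A) (hK : ¬ p ∣ Nat.card ↥K)
    (hKs : Group.IsSolvable ↥K) (hAK : A ≤ Subgroup.normalizer (K : Set G)) (q : ℕ) [Fact q.Prime]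
    (U : Subgroup G) (hU : U ≤ K) (hUq : ¬ q ∣ Nat.card ↥U)
    (hcomm : ∀ B : Subgroup G, B ≤ A → B.relIndex A = p →
      ¬ q ∣ Nat.card ↥⁅U, K ⊓ Subgroup.centralizer (B : Set G)⁆) :
    U ≤ (Cfsg.pPrimeCore q ↥K).map K.subtype := by
  have hp : p.Prime := Fact.out
  have hq : q.Prime := Fact.out
  obtain ⟨N, hN⟩ : ∃ N, N = (Cfsg.pPrimeCore q ↥K).map K.subtype := ⟨_, rfl⟩
  obtain ⟨R, hR⟩ : ∃ R, R = (Cfsg.pPrimePCore q ↥K).map K.subtype := ⟨_, rfl⟩
  rw [← hN]
  have hRn : (Cfsg.pPrimePCore q ↥K).Normal :=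
    Subgroup.Normal.comap (Cfsg.Agent.Lib.Helper1.pCore_normal q) _
  have hRc : (Cfsg.pPrimePCore q ↥K).Characteristic := pPrimePCore_characteristic q
  have hRK : R ≤ K := hR ▸ Subgroup.map_subtype_le _
  have hNR' : Cfsg.pPrimeCore q ↥K ≤ Cfsg.pPrimePCore q ↥K := by
    intro v hv
    rw [Cfsg.pPrimePCore, Subgroup.mem_comap]
    have : QuotientGroup.mk' (Cfsg.pPrimeCore q ↥K) v = 1 := (QuotientGroup.eq_one_iff v).mpr hv
    rw [this]; exact Subgroup.one_mem _
  have hNR : N ≤ R := by rw [hN, hR]; exact Subgroup.map_mono hNR'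
  have hKN : K ≤ Subgroup.normalizer (N : Set G) := hN ▸ Cfsg.Agent.Lib.Helper8.le_normalizer_map_subtype _
  have hKR : K ≤ Subgroup.normalizer (R : Set G) := hR ▸ Cfsg.Agent.Lib.Helper8.le_normalizer_map_subtype _
  have hAR : A ≤ Subgroup.normalizer (R : Set G) :=
    hR ▸ hAK.trans (Cfsg.Agent.Lib.Helper1.normalizer_le_normalizer_map_char _)
  -- `q'`-subgroups of `R` lie in `N`
  have hq' : ∀ W : Subgroup G, W ≤ R → ¬ q ∣ Nat.card W → W ≤ N := by
    intro W hWR hW w hw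
    have hwR := hWR hw
    rw [hR] at hwR
    obtain ⟨w', hw', rfl⟩ := hwR
    have hx' : QuotientGroup.mk' (Cfsg.pPrimeCore q ↥K) w' ∈ Cfsg.pCore q (↥K ⧸ Cfsg.pPrimeCore q ↥K) := hw'
    obtain ⟨k, hk⟩ := Cfsg.Agent.Lib.Helper1.pCore_isPGroup q ⟨_, hx'⟩
    have hk' : (QuotientGroup.mk' (Cfsg.pPrimeCore q ↥K) w') ^ q ^ k = 1 := congrArg Subtype.val hk
    rw [← map_pow, QuotientGroup.mk'_apply, QuotientGroup.eq_one_iff] at hk'
    have hcop : (q ^ k).Coprime (orderOf w') := by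
      apply Nat.Coprime.pow_left
      rw [Nat.Prime.coprime_iff_not_dvd hq]
      intro hd
      apply hW
      refine hd.trans ?_
      have : orderOf w' = orderOf (⟨K.subtype w', hw⟩ : W) := by
        rw [← Subgroup.orderOf_coe, ← Subgroup.orderOf_coe]
        rfl
      rw [this]
      exact orderOf_dvd_natCard _
    obtain ⟨m, hm⟩ := exists_pow_eq_self_of_coprime hcop
    rw [hN]
    refine ⟨w', ?_, rfl⟩
    rw [SetLike.mem_coe, ← hm]
    exact Subgroup.pow_mem _ hk' m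
  have hcopAR : (Nat.card A).Coprime (Nat.card R) := by
    obtain ⟨n, hn⟩ := (Cfsg.Agent.Lib.Helper4.elemAb_isPGroup hA).exists_card_eq
    rw [hn]
    apply Nat.Coprime.pow_left
    rw [Nat.Prime.coprime_iff_not_dvd hp]
    exact fun hd => hK (hd.trans (Subgroup.card_dvd_of_le hRK))
  have hAsolv : Group.IsSolvable A := by
    have : Group.IsNilpotent A := (Cfsg.Agent.Lib.Helper4.elemAb_isPGroup hA).isNilpotent
    infer_instance
  obtain ⟨P, hP⟩ := Cfsg.Agent.Lib.Helper1.coprime_exists_invariant_sylow A R hAR hcopAR (Or.inl hAsolv) q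
  obtain ⟨S, hS⟩ : ∃ S, S = Cfsg.Agent.Lib.Helper1.sylImg P := ⟨_, rfl⟩
  rw [← hS] at hP
  have hSR : S ≤ R := hS ▸ Cfsg.Agent.Lib.Helper1.sylImg_le P
  have hS2 : S ≤ commStab' U N := by
    conv_lhs => rw [Cfsg.Agent.Lib.Helper9.gen_hyperplanes p A S hA (by
      refine le_trans ?_ hA2
      nlinarith [hp.one_lt]) (fun hd => hK (hd.trans (Subgroup.card_dvd_of_le (hSR.trans hRK)))) hP]
    apply iSup_le
    rintro ⟨B, hBA, hBi⟩
    apply le_commStab' (inf_le_left.trans ((hSR.trans hRK).trans hKN))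
    apply hq'
    · rw [Subgroup.commutator_comm]
      exact (Subgroup.commutator_mono (inf_le_left.trans hSR) hU).trans (commutator_le_of_le_normalizer hKR)
    · intro hd
      apply hcomm B hBA hBi
      exact hd.trans (Subgroup.card_dvd_of_le
        (Subgroup.commutator_mono le_rfl (inf_le_inf_right _ (hSR.trans hRK))))
  have hN2 : N ≤ commStab' U N := by
    apply le_commStab' Subgroup.le_normalizer
    rw [Subgroup.commutator_comm]
    exact commutator_le_of_le_normalizer (hU.trans hKN)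
  -- `R = N S`
  have hidx : ∃ a, N.relIndex R = q ^ a := by
    have e1 := Cfsg.Agent.Lib.Helper4.card_eq_mul_relIndex hNR
    have e2 := Cfsg.Agent.Lib.Helper4.card_eq_mul_relIndex hNR'
    have e3 : Nat.card R = Nat.card (Cfsg.pPrimePCore q ↥K) := by
      rw [hR]; exact Subgroup.card_map_of_injective K.subtype_injective
    have e4 : Nat.card N = Nat.card (Cfsg.pPrimeCore q ↥K) := by
      rw [hN]; exact Subgroup.card_map_of_injective K.subtype_injective
    rw [e3, e4, e2] at e1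
    have e5 := Nat.eq_of_mul_eq_mul_left Nat.card_pos e1
    rw [← e5, ← Cfsg.Agent.Lib.Helper29.card_map_mk', Cfsg.Agent.Lib.Helper29.map_pPrimePCore]
    exact (Cfsg.Agent.Lib.Helper1.pCore_isPGroup q).exists_card_eq
  have hRNS : R ≤ N ⊔ S := by
    obtain ⟨a, ha⟩ := hidx
    have h1 : ((P : Subgroup R) ⊔ N.subgroupOf R).index ∣ (P : Subgroup R).index :=
      Subgroup.index_dvd_of_le le_sup_left
    have h2 : ((P : Subgroup R) ⊔ N.subgroupOf R).index ∣ q ^ a := by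
      rw [← ha]
      exact Subgroup.index_dvd_of_le le_sup_right
    have h3 : ((P : Subgroup R) ⊔ N.subgroupOf R).index = 1 := by
      obtain ⟨j, -, hj⟩ := (Nat.dvd_prime_pow hq).mp h2
      rcases Nat.eq_zero_or_pos j with rfl | hpos
      · rw [hj, pow_zero]
      · exfalso
        apply P.not_dvd_index
        refine dvd_trans ?_ h1
        rw [hj]
        exact dvd_pow_self q hpos.ne'
    rw [Subgroup.index_eq_one] at h3
    intro x hx
    have hx' : (⟨x, hx⟩ : R) ∈ (P : Subgroup R) ⊔ N.subgroupOf R := h3 ▸ Subgroup.mem_top _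
    have := Subgroup.mem_map_of_mem R.subtype hx'
    rw [Subgroup.map_sup, Subgroup.subgroupOf_map_subtype] at this
    refine (sup_le ?_ ?_ : _ ≤ N ⊔ S) this
    · rw [hS]; exact le_sup_right
    · exact inf_le_left.trans le_sup_left
  have hR2 : R ≤ commStab' U N := hRNS.trans (sup_le hN2 hS2)
  -- conclusion
  apply hq' U _ hUq
  intro u hu
  have hcen : QuotientGroup.mk' (Cfsg.pPrimeCore q ↥K) ⟨u, hU hu⟩ ∈
      Subgroup.centralizer (Cfsg.pCore q (↥K ⧸ Cfsg.pPrimeCore q ↥K) : Set (↥K ⧸ Cfsg.pPrimeCore q ↥K)) := by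
    rw [Subgroup.mem_centralizer_iff]
    intro xb hxb
    obtain ⟨x, rfl⟩ := QuotientGroup.mk'_surjective _ xb
    have hxR : (x : G) ∈ R := by
      rw [hR]
      exact ⟨x, hxb, rfl⟩
    have h1 := (hR2 hxR).2 u hu
    rw [hN] at h1
    obtain ⟨n, hn, hn'⟩ := h1
    have h2 : x * ⟨u, hU hu⟩ * x⁻¹ * (⟨u, hU hu⟩ : K)⁻¹ = n := by
      apply Subtype.ext
      exact hn'.symm
    have h3 : QuotientGroup.mk' (Cfsg.pPrimeCore q ↥K) (x * ⟨u, hU hu⟩ * x⁻¹ * (⟨u, hU hu⟩ : K)⁻¹) = 1 := by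
      rw [h2, QuotientGroup.mk'_apply, QuotientGroup.eq_one_iff]
      exact hn
    rw [map_mul, map_mul, map_mul, map_inv, map_inv, mul_inv_eq_one, mul_inv_eq_iff_eq_mul] at h3
    exact h3
  have h4 := Cfsg.Agent.Lib.Helper1.centralizer_pCore_le q
    (Cfsg.Agent.Lib.Helper1.pPrimeCore_quotient_eq_bot q) hcen
  rw [hR]
  exact ⟨⟨u, hU hu⟩, h4, rfl⟩

end Cfsg.Agent.Lib.Helper16
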