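import Mathlib
import Cfsg.Agent.Lib.Helper16.SPE
import Cfsg.Agent.Lib.Helper9.Generation
import Cfsg.Agent.Lib.Helper1.Coprime

set_option autoImplicit false

namespace Cfsg.Agent.Lib.Helper16

open scoped commutatorElement

variable {G : Type*} [Group G]

theorem le_of_prime_card_of_mem {q : ℕ} [Fact q.Prime] {X Y : Subgroup G} (hX : Nat.card X = q) {x : G}
    (hx : x ∈ X) (hx1 : x ≠ 1) (hxY : x ∈ Y) : X ≤ Y := by
  intro y hy
  have h := mem_zpowers_of_prime_card (G := X) (g := ⟨x, hx⟩) (g' := ⟨y, hy⟩) hX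
    (fun h => hx1 (congrArg Subtype.val h))
  obtain ⟨k, hk⟩ := Subgroup.mem_zpowers_iff.mp h
  have : x ^ k = y := by
    have := congrArg Subtype.val hk
    simpa using this
  rw [← this]
  exact Y.zpow_mem hxY k

/-- A `p`-group `P` acted on by `Q ≅ E_{q^2}` such that only `X₁, X₂` (of order `q`) have fixed points. -/
theorem commutator_fixed_eq_bot [Finite G] {p q : ℕ} [Fact p.Prime] [Fact q.Prime] (hpq : p ≠ q)
    (P Q : Subgroup G) (hP : IsPGroup p P) (hQP : Q ≤ Subgroup.normalizer (P : Set G))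
    (hQ : Cfsg.IsElementaryAbelian q Q) (hQc : Nat.card Q = q ^ 2)
    (X₁ X₂ : Subgroup G) (h₁ : X₁ ≤ Q) (h₂ : X₂ ≤ Q) (h₁₂ : X₁ ≠ X₂) (hc₁ : Nat.card X₁ = q) (hc₂ : Nat.card X₂ = q)
    (honly : ∀ X : Subgroup G, X ≤ Q → Nat.card X = q →
      P ⊓ Subgroup.centralizer (X : Set G) ≠ ⊥ → X = X₁ ∨ X = X₂) :
    ⁅P ⊓ Subgroup.centralizer (X₁ : Set G), P ⊓ Subgroup.centralizer (X₂ : Set G)⁆ = ⊥ ∧
      (P ⊓ Subgroup.centralizer (X₁ : Set G)) ⊓ (P ⊓ Subgroup.centralizer (X₂ : Set G)) = ⊥ ∧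
      (P ⊓ Subgroup.centralizer (X₁ : Set G)) ⊔ (P ⊓ Subgroup.centralizer (X₂ : Set G)) = P := by
  have hq : q.Prime := Fact.out
  have hp : p.Prime := Fact.out
  have hcopP : ∀ Y : Subgroup G, Y ≤ P → ¬ q ∣ Nat.card Y := by
    intro Y hY hdvd
    obtain ⟨n, hn⟩ := (hP.to_le hY).exists_card_eq
    rw [hn] at hdvd
    exact hpq ((Nat.prime_dvd_prime_iff_eq hq hp).mp (hq.dvd_of_dvd_pow hdvd)).symm
  have hgen : ∀ Y : Subgroup G, Y ≤ P → Q ≤ Subgroup.normalizer (Y : Set G) →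
      Y ≤ (Y ⊓ Subgroup.centralizer (X₁ : Set G)) ⊔ (Y ⊓ Subgroup.centralizer (X₂ : Set G)) := by
    intro Y hY hQY
    conv_lhs => rw [Cfsg.Agent.Lib.Helper9.gen_hyperplanes q Q Y hQ (by
      rw [hQc]; nlinarith [hq.one_lt]) (hcopP Y hY) hQY]
    apply iSup_le
    rintro ⟨B, hBQ, hBi⟩
    have hBc : Nat.card B = q := by
      have := Cfsg.Agent.Lib.Helper4.card_eq_mul_relIndex hBQ
      rw [hBi, hQc, pow_two] at this
      exact (Nat.eq_of_mul_eq_mul_right hq.pos this).symm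
    by_cases hb : P ⊓ Subgroup.centralizer (B : Set G) = ⊥
    · have : Y ⊓ Subgroup.centralizer (B : Set G) ≤ ⊥ := hb ▸ inf_le_inf_right _ hY
      exact this.trans bot_le
    · rcases honly B hBQ hBc hb with rfl | rfl
      · exact le_sup_left
      · exact le_sup_right
  obtain ⟨P₁, hP₁⟩ : ∃ P₁, P₁ = P ⊓ Subgroup.centralizer (X₁ : Set G) := ⟨_, rfl⟩
  obtain ⟨P₂, hP₂⟩ : ∃ P₂, P₂ = P ⊓ Subgroup.centralizer (X₂ : Set G) := ⟨_, rfl⟩
  rw [← hP₁, ← hP₂]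
  have hP₁P : P₁ ≤ P := hP₁ ▸ inf_le_left
  have hP₂P : P₂ ≤ P := hP₂ ▸ inf_le_left
  have hP₁C : P₁ ≤ Subgroup.centralizer (X₁ : Set G) := hP₁ ▸ inf_le_right
  have hP₂C : P₂ ≤ Subgroup.centralizer (X₂ : Set G) := hP₂ ▸ inf_le_right
  have hQP₁ : Q ≤ Subgroup.normalizer (P₁ : Set G) :=
    hP₁ ▸ Cfsg.Agent.Lib.Helper9.le_normalizer_inf_centralizer hQ h₁ le_rfl hQP
  have hQP₂ : Q ≤ Subgroup.normalizer (P₂ : Set G) :=
    hP₂ ▸ Cfsg.Agent.Lib.Helper9.le_normalizer_inf_centralizer hQ h₂ le_rfl hQP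
  -- the intersection
  have hinf : P₁ ⊓ P₂ = ⊥ := by
    have hX₁1 : X₁ ≠ ⊥ := by
      intro h
      rw [h, Subgroup.card_bot] at hc₁
      exact hq.one_lt.ne hc₁
    have hX₂1 : X₂ ≠ ⊥ := by
      intro h
      rw [h, Subgroup.card_bot] at hc₂
      exact hq.one_lt.ne hc₂
    obtain ⟨⟨x₁, hx₁⟩, hx₁1⟩ := Subgroup.ne_bot_iff_exists_ne_one.mp hX₁1
    obtain ⟨⟨x₂, hx₂⟩, hx₂1⟩ := Subgroup.ne_bot_iff_exists_ne_one.mp hX₂1
    have hx₁1' : x₁ ≠ 1 := fun h => hx₁1 (Subtype.ext h)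
    have hx₂1' : x₂ ≠ 1 := fun h => hx₂1 (Subtype.ext h)
    have hne12 : ∀ (X Y : Subgroup G), Nat.card X = q → Nat.card Y = q → X ≤ Y → X = Y := by
      intro X Y hX hY hXY
      exact Subgroup.eq_of_le_of_card_ge hXY (by rw [hX, hY])
    have hx₂X₁ : x₂ ∉ X₁ := fun h =>
      h₁₂ (hne12 X₂ X₁ hc₂ hc₁ (le_of_prime_card_of_mem hc₂ hx₂ hx₂1' h)).symm
    have hx₁X₂ : x₁ ∉ X₂ := fun h =>
      h₁₂ (hne12 X₁ X₂ hc₁ hc₂ (le_of_prime_card_of_mem hc₁ hx₁ hx₁1' h))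
    have hx3 : x₁ * x₂ ≠ 1 := by
      intro h
      apply hx₂X₁
      have : x₂ = x₁⁻¹ := (eq_inv_of_mul_eq_one_right h)
      rw [this]
      exact X₁.inv_mem hx₁
    have ho : orderOf (x₁ * x₂) = q := orderOf_eq_prime (hQ.2 _ (Q.mul_mem (h₁ hx₁) (h₂ hx₂))) hx3
    have h3 : P ⊓ Subgroup.centralizer ((Subgroup.zpowers (x₁ * x₂) : Subgroup G) : Set G) = ⊥ := by
      by_contra hne
      rcases honly _ (by
        rw [Subgroup.zpowers_le]; exact Q.mul_mem (h₁ hx₁) (h₂ hx₂)) (by rw [Nat.card_zpowers, ho]) hne with h | h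
      · apply hx₂X₁
        have : x₁ * x₂ ∈ X₁ := h ▸ Subgroup.mem_zpowers _
        exact (Subgroup.mul_mem_cancel_left X₁ hx₁).mp this
      · apply hx₁X₂
        have : x₁ * x₂ ∈ X₂ := h ▸ Subgroup.mem_zpowers _
        exact (Subgroup.mul_mem_cancel_right X₂ hx₂).mp this
    rw [eq_bot_iff, ← h3]
    intro g hg
    obtain ⟨hg1, hg2⟩ := Subgroup.mem_inf.mp hg
    refine Subgroup.mem_inf.mpr ⟨hP₁P hg1, ?_⟩
    rw [Subgroup.zpowers_eq_closure, Subgroup.centralizer_closure, Subgroup.mem_centralizer_singleton_iff]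
    have e1 := Subgroup.mem_centralizer_iff.mp (hP₁C hg1) x₁ hx₁
    have e2 := Subgroup.mem_centralizer_iff.mp (hP₂C hg2) x₂ hx₂
    rw [← mul_assoc, ← e1, mul_assoc, ← e2, mul_assoc]
  have hsup : P₁ ⊔ P₂ = P := by
    apply le_antisymm (sup_le hP₁P hP₂P)
    have := hgen P le_rfl hQP
    rwa [← hP₁, ← hP₂] at this
  refine ⟨?_, hinf, hsup⟩
  -- coprime facts
  have hcop : ∀ (X Y : Subgroup G), Nat.card X = q → Y ≤ P → (Nat.card X).Coprime (Nat.card Y) := by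
    intro X Y hX hY
    rw [hX]
    exact (Nat.Prime.coprime_iff_not_dvd hq).mpr (hcopP Y hY)
  have hsolvP : ∀ Y : Subgroup G, Y ≤ P → Group.IsSolvable Y := by
    intro Y hY
    have : Group.IsNilpotent Y := (hP.to_le hY).isNilpotent
    infer_instance
  -- the normalizer of `P₁`
  obtain ⟨N, hN⟩ : ∃ N, N = P ⊓ Subgroup.normalizer (P₁ : Set G) := ⟨_, rfl⟩
  have hNP : N ≤ P := hN ▸ inf_le_left
  have hNn : N ≤ Subgroup.normalizer (P₁ : Set G) := hN ▸ inf_le_right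
  have hP₁N : P₁ ≤ N := hN ▸ le_inf hP₁P Subgroup.le_normalizer
  have hQN : Q ≤ Subgroup.normalizer (N : Set G) := by
    rw [hN]
    exact Cfsg.Agent.Lib.Helper8.le_normalizer_inf hQP (hQP₁.trans Subgroup.le_normalizer)
  obtain ⟨B, hB⟩ : ∃ B, B = N ⊓ Subgroup.centralizer (X₂ : Set G) := ⟨_, rfl⟩
  have hBN : B ≤ N := hB ▸ inf_le_left
  have hBP₂ : B ≤ P₂ := by rw [hB, hP₂]; exact inf_le_inf_right _ hNP
  have hQB : Q ≤ Subgroup.normalizer (B : Set G) :=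
    hB ▸ Cfsg.Agent.Lib.Helper9.le_normalizer_inf_centralizer hQ h₂ le_rfl hQN
  have hNsup : N ≤ P₁ ⊔ B := by
    refine (hgen N hNP hQN).trans (sup_le ?_ (hB ▸ le_sup_right))
    refine le_trans ?_ le_sup_left
    rw [hP₁]
    exact inf_le_inf_right _ hNP
  have hBX₁ : ⁅B, X₁⁆ = B := by
    have := Cfsg.Agent.Lib.Helper1.coprime_commutator_sup_centralizer X₁ B (h₁.trans hQB)
      (hcop X₁ B hc₁ (hBN.trans hNP)) (Or.inr (hsolvP B (hBN.trans hNP)))
    have h0 : B ⊓ Subgroup.centralizer (X₁ : Set G) = ⊥ := by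
      rw [eq_bot_iff, ← hinf]
      refine le_inf ?_ (inf_le_left.trans hBP₂)
      rw [hP₁]
      exact inf_le_inf_right _ (hBN.trans hNP)
    rwa [h0, sup_bot_eq] at this
  have hBP₁ : ⁅B, P₁⁆ = ⊥ := by
    rw [← hBX₁]
    apply Subgroup.commutator_commutator_eq_bot_of_rotate
    · have : ⁅X₁, P₁⁆ = ⊥ := by
        rw [Subgroup.commutator_comm, Subgroup.commutator_eq_bot_iff_le_centralizer]
        exact hP₁C
      rw [this, Subgroup.commutator_bot_left]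
    · rw [Subgroup.commutator_eq_bot_iff_le_centralizer]
      exact (commutator_le_of_le_normalizer (hBN.trans hNn)).trans hP₁C
  by_cases hNeq : N = P
  · have : P₂ ≤ B := by
      rw [hB, hNeq, hP₂]
    rw [Subgroup.commutator_comm, eq_bot_iff, ← hBP₁]
    exact Subgroup.commutator_mono this le_rfl
  · exfalso
    have hlt : N < P := lt_of_le_of_ne hNP hNeq
    obtain ⟨N2, hN2⟩ : ∃ N2, N2 = P ⊓ Subgroup.normalizer (N : Set G) := ⟨_, rfl⟩
    have hN2P : N2 ≤ P := hN2 ▸ inf_le_left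
    have hQN2 : Q ≤ Subgroup.normalizer (N2 : Set G) := by
      rw [hN2]
      exact Cfsg.Agent.Lib.Helper8.le_normalizer_inf hQP (hQN.trans Subgroup.le_normalizer)
    obtain ⟨x, hxP, hxN, hxn⟩ := exists_mem_normalizer_of_lt hP hlt
    have hxN2 : x ∈ N2 := hN2 ▸ Subgroup.mem_inf.mpr ⟨hxP, hxn⟩
    have hnot : ¬ N2 ⊓ Subgroup.centralizer (X₂ : Set G) ≤ N := by
      intro hle
      apply hxN
      refine (hgen N2 hN2P hQN2).trans (sup_le ?_ hle) hxN2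
      refine le_trans ?_ hP₁N
      rw [hP₁]
      exact inf_le_inf_right _ hN2P
    obtain ⟨u, hu, huN⟩ := SetLike.not_le_iff_exists.mp hnot
    obtain ⟨hu1, hu2⟩ := Subgroup.mem_inf.mp hu
    have hun : u ∈ Subgroup.normalizer (N : Set G) := by
      rw [hN2] at hu1
      exact (Subgroup.mem_inf.mp hu1).2
    have hP₁X₂ : ⁅P₁, X₂⁆ = P₁ := by
      have := Cfsg.Agent.Lib.Helper1.coprime_commutator_sup_centralizer X₂ P₁ (h₂.trans hQP₁)
        (hcop X₂ P₁ hc₂ hP₁P) (Or.inr (hsolvP P₁ hP₁P))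
      have h0 : P₁ ⊓ Subgroup.centralizer (X₂ : Set G) = ⊥ := by
        rw [eq_bot_iff, ← hinf]
        refine le_inf inf_le_left ?_
        rw [hP₂]
        exact inf_le_inf_right _ hP₁P
      rwa [h0, sup_bot_eq] at this
    have hNX₂ : ⁅N, X₂⁆ = P₁ := by
      apply le_antisymm
      · rw [Subgroup.commutator_le]
        intro n hn y hy
        obtain ⟨a, ha, b, hb, rfl⟩ := exists_mul_of_mem_sup (hBN.trans hNn) (hNsup hn)
        have hby : y * b = b * y := Subgroup.mem_centralizer_iff.mp (hP₂C (hBP₂ hb)) y hy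
        have e : ⁅a * b, y⁆ = ⁅a, y⁆ := by
          simp only [commutatorElement_def]
          calc a * b * y * (a * b)⁻¹ * y⁻¹ = a * (b * y) * b⁻¹ * a⁻¹ * y⁻¹ := by group
            _ = a * (y * b) * b⁻¹ * a⁻¹ * y⁻¹ := by rw [hby]
            _ = a * y * a⁻¹ * y⁻¹ := by group
        rw [e, ← hP₁X₂]
        exact Subgroup.commutator_mem_commutator ha hy
      · rw [← hP₁X₂]
        exact Subgroup.commutator_mono hP₁N le_rfl
    apply huN
    rw [hN]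
    refine Subgroup.mem_inf.mpr ⟨hN2P hu1, ?_⟩
    rw [← hNX₂]
    have hz : Subgroup.zpowers u ≤ Subgroup.normalizer ((⁅N, X₂⁆ : Subgroup G) : Set G) := by
      apply le_normalizer_commutator
      · rw [Subgroup.zpowers_le]; exact hun
      · rw [Subgroup.zpowers_le]
        exact Subgroup.centralizer_le_normalizer _ hu2
    exact hz (Subgroup.mem_zpowers u)

end Cfsg.Agent.Lib.Helper16
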